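/-! Root letters and images of the unit codes for generators of the Chevalley group of type G2 over four elements. -/

set_option autoImplicit false

namespace Cfsg.Agent.H16.G24Mat

/-- the root elements used: root and parameter code -/
def rootLetters : List (Nat × Nat) := [(4, 1), (5, 1), (5, 2), (6, 1), (6, 2), (7, 1), (11, 1)]

/-- image codes of the 28 unit codes -/
def colList : List (List Nat) := [[1, 2, 4100, 8200, 16, 32, 64, 128, 320, 640, 1088, 2176, 4096, 8192, 17728, 35456, 65536, 131072, 266241, 532482, 1114112, 2228224, 4259840, 8519680, 22085632, 44171264, 67108864, 134217728],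
  [16385, 32770, 4, 8, 16, 32, 80, 160, 256, 512, 1024, 2048, 5120, 10240, 16384, 32768, 81924, 163848, 262144, 524288, 1310720, 2621440, 4194304, 8388608, 16777216, 33554432, 83886080, 167772160],
  [32769, 49154, 4, 8, 16, 32, 96, 176, 256, 512, 1024, 2048, 6144, 11264, 16384, 32768, 114696, 147468, 262144, 524288, 1572864, 2883584, 4194304, 8388608, 16777216, 33554432, 100663296, 184549376],
  [65537, 131074, 4, 8, 80, 160, 64, 128, 256, 512, 5120, 10240, 4096, 8192, 81924, 163848, 65536, 131072, 1310720, 2621440, 1048576, 2097152, 4194304, 8388608, 83886080, 167772160, 67108864, 134217728],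
  [131073, 196610, 4, 8, 144, 224, 64, 128, 256, 512, 9216, 14336, 4096, 8192, 213000, 98316, 65536, 131072, 2359296, 3670016, 1048576, 2097152, 4194304, 8388608, 150994944, 234881024, 67108864, 134217728],
  [1, 2, 262148, 524296, 16, 32, 17728, 35456, 16640, 33280, 17408, 34816, 266241, 532482, 16384, 32768, 22085632, 44171264, 262144, 524288, 17825792, 35651584, 20971520, 41943040, 16777216, 33554432, 67108864, 134217728],
  [1, 2, 67108868, 134217736, 67108881, 134217762, 65600, 131200, 1048832, 2097664, 4195328, 8390656, 4096, 8192, 16793600, 33587200, 65536, 131072, 262144, 524288, 1048576, 2097152, 4194304, 8388608, 16777216, 33554432, 67108864, 134217728]]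

/-- the six generators as words in the root letters -/
def genWords : List (List Nat) := [[6], [2, 0, 1, 0, 1, 6, 1, 0, 1, 0, 2], [3, 1, 6, 1, 3], [0, 5, 4, 3, 5, 3, 4, 5, 0], [5, 4, 3, 5, 3, 4, 5], [2, 4, 1, 6, 1, 4, 2]]

end Cfsg.Agent.H16.G24Mat
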