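import Cfsg.Prelude.Def_ChevG2
import Cfsg.Agent.H16.F4
import Cfsg.Agent.H16.CosetEnum
import Cfsg.Agent.H16.G24MatData

/-! Six involutions in the Chevalley group of type G2 over four elements, evaluated on vector codes. -/

set_option autoImplicit false

namespace Cfsg.Agent.H16.G24Mat

open EnumData
open Cfsg.Lie (chevG2)

/-- the index set -/
abbrev Idx : Type := chevG2.Idx

/-- position of an index -/
def pos : Idx → Nat
  | .inl i => i.val
  | .inr r => 2 + r.val

/-- the vector of a code, two bits for each coordinate -/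
def dec (c : Nat) (i : Idx) : F4 := F4.fromNat (c >>> (2 * pos i) &&& 3)

theorem dec_xor (a b : Nat) : dec (a ^^^ b) = dec a + dec b := by
  funext i
  simp only [dec, Pi.add_apply, Nat.shiftRight_xor_distrib, Nat.and_xor_distrib_right]
  exact F4.fromNat_xor ⟨a >>> (2 * pos i) &&& 3, Nat.lt_succ_of_le Nat.and_le_right⟩
    ⟨b >>> (2 * pos i) &&& 3, Nat.lt_succ_of_le Nat.and_le_right⟩

theorem dec_zero : dec 0 = 0 := by
  funext i
  simp [dec, F4.fromNat]
  rfl

/-- root of a letter -/
def letRoot (g : Nat) : Fin chevG2.nroots := ⟨(rootLetters.getD g (0, 0)).1 % 12, Nat.mod_lt _ (by decide)⟩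

/-- parameter of a letter -/
def letPar (g : Nat) : F4 := F4.fromNat (rootLetters.getD g (0, 0)).2

/-- matrix of a letter -/
def mat (g : Nat) : Matrix Idx Idx F4 :=
  if g < 7 then chevG2.xMat F4 (letRoot g) (letPar g) else 1

/-- combination of the first `k` images of unit codes selected by the bits of `c` -/
noncomputable def comb (cs : List Nat) (k : Nat) (c : Nat) : Nat :=
  Nat.rec (motive := fun _ => Nat) 0
    (fun j ih => forceNat ih fun v =>
      Bool.rec v (Nat.xor v (cs.getD j 0)) (Nat.beq (Nat.land (Nat.shiftRight c j) 1) 1)) k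

/-- image of a code under a letter -/
noncomputable def img (g c : Nat) : Nat := comb (colList.getD g []) 28 c

theorem col_ok : ∀ g : Fin 7, ∀ j : Fin 28,
    Matrix.mulVec (mat g) (dec (2 ^ (j : Nat))) = dec ((colList.getD g []).getD j 0) := by
  decide +kernel

theorem comb_succ (cs : List Nat) (k c : Nat) :
    comb cs (k + 1) c = if c.testBit k then comb cs k c ^^^ cs.getD k 0 else comb cs k c := by
  show forceNat (comb cs k c) (fun v => Bool.rec (motive := fun _ => Nat) v (Nat.xor v (cs.getD k 0))
    (Nat.beq (Nat.land (Nat.shiftRight c k) 1) 1)) = _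
  rw [forceNat_eq]
  have h : Nat.beq (Nat.land (Nat.shiftRight c k) 1) 1 = c.testBit k := by
    have h1 : Nat.land (Nat.shiftRight c k) 1 = (c >>> k) % 2 := Nat.and_one_is_mod _
    rw [h1]
    rcases Nat.mod_two_eq_zero_or_one (c >>> k) with h2 | h2 <;>
      simp [Nat.testBit_eq_decide_div_mod_eq, ← Nat.shiftRight_eq_div_pow, h2] <;> rfl
  simp only [h]
  cases c.testBit k <;> simp <;> rfl

theorem comb_unit (c k : Nat) : comb ((List.range 28).map (2 ^ ·)) (min k 28) c = c % 2 ^ (min k 28) := by
  induction k with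
  | zero => simp [comb, Nat.mod_one]
  | succ k ih =>
    by_cases hk : k < 28
    · rw [Nat.min_eq_left (by omega)] at ih ⊢
      rw [comb_succ, ih]
      have hg : ((List.range 28).map (2 ^ ·)).getD k 0 = 2 ^ k := by
        rw [List.getD_eq_getElem _ _ (by simpa using hk)]; simp
      rw [hg]
      refine Nat.eq_of_testBit_eq fun i => ?_
      rcases lt_trichotomy i k with h | rfl | h
      · split <;> simp [Nat.testBit_mod_two_pow, Nat.testBit_xor, Nat.testBit_two_pow, h, h.ne',
          Nat.lt_succ_of_lt h]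
      · cases hb : c.testBit i <;>
          simp [Nat.testBit_mod_two_pow, Nat.testBit_xor, Nat.testBit_two_pow, hb]
      · split <;> simp [Nat.testBit_mod_two_pow, Nat.testBit_xor, Nat.testBit_two_pow,
          Nat.not_lt.2 h.le, h.ne, Nat.not_lt.2 (Nat.succ_le_of_lt h)]
    · rw [Nat.min_eq_right (by omega : 28 ≤ k)] at ih
      rw [Nat.min_eq_right (by omega : 28 ≤ k + 1)]
      exact ih

theorem mulVec_comb {g : Nat} (hg : g < 7) (c : Nat) : ∀ k, k ≤ 28 →
    Matrix.mulVec (mat g) (dec (comb ((List.range 28).map (2 ^ ·)) k c)) =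
      dec (comb (colList.getD g []) k c)
  | 0, _ => by simp [comb, dec_zero]
  | k + 1, hk => by
    have ih := mulVec_comb hg c k (by omega)
    rw [comb_succ, comb_succ]
    split
    · rw [dec_xor, dec_xor, Matrix.mulVec_add, ih]
      congr 1
      have h2 : ((List.range 28).map (2 ^ ·)).getD k 0 = 2 ^ k := by
        rw [List.getD_eq_getElem _ _ (by simpa using (show k < 28 by omega))]; simp
      rw [h2]
      exact col_ok ⟨g, hg⟩ ⟨k, by omega⟩
    · exact ih

theorem mulVec_img {g c : Nat} (hg : g < 7) (hc : c < 2 ^ 28) :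
    Matrix.mulVec (mat g) (dec c) = dec (img g c) := by
  have h := mulVec_comb hg c 28 le_rfl
  have h2 := comb_unit c 28
  rw [Nat.min_self, Nat.mod_eq_of_lt hc] at h2
  rwa [h2] at h

theorem col_lt : ∀ g : Fin 7, ∀ j : Fin 28, (colList.getD g []).getD j 0 < 2 ^ 28 := by
  decide +kernel

theorem comb_lt {g : Nat} (hg : g < 7) (c : Nat) : ∀ k, k ≤ 28 →
    comb (colList.getD g []) k c < 2 ^ 28
  | 0, _ => by simp [comb]
  | k + 1, hk => by
    have ih := comb_lt hg c k (by omega)
    rw [comb_succ]
    split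
    · exact Nat.xor_lt_two_pow ih (col_lt ⟨g, hg⟩ ⟨k, by omega⟩)
    · exact ih

/-- image of a code under a word, first letter first -/
noncomputable def runImg (w : List Nat) : Nat → Nat :=
  List.rec (motive := fun _ => Nat → Nat) (fun c => c)
    (fun g _ ih c => forceNat c fun c => ih (img g c)) w

theorem runImg_cons (g : Nat) (w : List Nat) (c : Nat) : runImg (g :: w) c = runImg w (img g c) :=
  forceNat_eq c fun c => runImg w (img g c)

theorem dec_unit : ∀ i : Idx, dec (2 ^ (2 * pos i)) = Pi.single i 1 := by decide +kernel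

theorem unit_lt : ∀ i : Idx, 2 ^ (2 * pos i) < 2 ^ 28 := by decide +kernel

theorem unit_mem : ∀ i : Idx, 2 ^ (2 * pos i) ∈ (List.range 14).map (fun k => 4 ^ k) := by
  decide +kernel

/-- a word of matrices -/
def wordMat (w : List Nat) : Matrix Idx Idx F4 :=
  w.foldl (fun m g => mat g * m) 1

theorem foldl_mat (w : List Nat) : ∀ m : Matrix Idx Idx F4,
    w.foldl (fun m g => mat g * m) m = wordMat w * m := by
  induction w with
  | nil => intro m; simp [wordMat]
  | cons g w ih =>
    intro m
    simp only [List.foldl_cons, wordMat]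
    rw [ih, ih (mat g * 1), Matrix.mul_one, Matrix.mul_assoc]

theorem wordMat_cons (g : Nat) (w : List Nat) : wordMat (g :: w) = wordMat w * mat g := by
  rw [wordMat, List.foldl_cons, foldl_mat, Matrix.mul_one]

theorem wordMat_apply : ∀ (w : List Nat), (∀ g ∈ w, g < 7) → ∀ c, c < 2 ^ 28 →
    runImg w c < 2 ^ 28 ∧ Matrix.mulVec (wordMat w) (dec c) = dec (runImg w c)
  | [], _, c, hc => ⟨hc, by simp [wordMat, runImg]⟩
  | g :: w, hw, c, hc => by
    have hg := hw g (List.mem_cons_self ..)
    obtain ⟨h3, h4⟩ := wordMat_apply w (fun x hx => hw x (List.mem_cons_of_mem _ hx)) _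
      (comb_lt hg c 28 le_rfl)
    refine ⟨by rw [runImg_cons]; exact h3, ?_⟩
    rw [runImg_cons, wordMat_cons, ← Matrix.mulVec_mulVec, mulVec_img hg hc]
    exact h4

theorem wordMat_eq_one {w : List Nat} (hw : ∀ g ∈ w, g < 7)
    (h : ((List.range 14).map fun k => 4 ^ k).all (fun c => Nat.beq (runImg w c) c) = true) :
    wordMat w = 1 := by
  ext i j
  have hj := Nat.eq_of_beq_eq_true (List.all_eq_true.mp h _ (unit_mem j))
  have h2 := (wordMat_apply w hw _ (unit_lt j)).2
  rw [hj, dec_unit, Matrix.mulVec_single_one] at h2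
  have h3 := congrFun h2 i
  simp only [Matrix.col_apply] at h3
  rw [Matrix.one_apply, h3, Pi.single_apply]

theorem mat_sq (g : Nat) : mat g * mat g = 1 := by
  by_cases hg : g < 7
  · have h : ∀ g : Fin 7, ((List.range 14).map fun k => 4 ^ k).all
        (fun c => Nat.beq (runImg [g.val, g.val] c) c) = true := by decide +kernel
    have h2 := wordMat_eq_one (w := [g, g]) (by simpa using hg) (h ⟨g, hg⟩)
    simpa [wordMat] using h2
  · simp [mat, hg]

/-- the unit of a letter -/
def unit (g : Nat) : GL Idx F4 := ⟨mat g, mat g, mat_sq g, mat_sq g⟩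

theorem ev_unit_val : ∀ w : List Nat, ((ev unit w : GL Idx F4) : Matrix Idx Idx F4) = wordMat w
  | [] => rfl
  | g :: w => by rw [ev, Units.val_mul, ev_unit_val w, wordMat_cons]; rfl

theorem unit_mem_group (g : Nat) : unit g ∈ chevG2.group F4 := by
  by_cases hg : g < 7
  · exact Subgroup.subset_closure ⟨letRoot g, letPar g, by simp [unit, mat, hg]⟩
  · have : unit g = 1 := Units.ext (by simp [unit, mat, hg])
    rw [this]; exact one_mem _

end Cfsg.Agent.H16.G24Mat
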