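import Cfsg.Prelude.Def_SporCoxeter
import Cfsg.Agent.H16.CosetPres
import Cfsg.Agent.H16.G24UCheck

/-! The enumeration certificate applied to the presented group G24, subgroup U. -/

set_option autoImplicit false
set_option linter.unusedSimpArgs false

namespace Cfsg.Agent.H16.G24U

open Cfsg.Spor EnumData CoxEnum

/-- generators -/
inductive Gen
  | a
  | b
  | c
  | d
  | e
  | f
  deriving DecidableEq

/-- the Coxeter graph a5b3c8d3e, b3f -/
def edges : List (Gen × ℕ × Gen) := [(.a, 5, .b), (.b, 3, .c), (.c, 8, .d), (.d, 3, .e), (.b, 3, .f)]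

/-- the further relators -/
def extra : List (FreeGroup Gen) := [
  .of Gen.a * ((.of Gen.c * .of Gen.d) ^ 4)⁻¹,
  (.of Gen.a * .of Gen.b * .of Gen.c * .of Gen.f) ^ 5,
  ((.of Gen.b * .of Gen.c * .of Gen.d * .of Gen.c * .of Gen.d) ^ 5 * .of Gen.e) ^ 3]

/-- the presented group -/
abbrev Grp : Type := CoxPresented Gen edges extra


/-- the generators in the order of the certificate -/
def gens : List Gen := [.a, .b, .c, .d, .e, .f]

theorem mem_gens (x : Gen) : x ∈ gens ∧ x ∈ coxNodes edges := by
  cases x <;> decide

theorem gens_nodup : gens.Nodup := by decide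

/-- the extra relators as words in path order -/
def extraWords : List (List Nat) := [[2,3,2,3,2,3,2,3,0], [5,2,1,0,5,2,1,0,5,2,1,0,5,2,1,0,5,2,1,0], [4,3,2,3,2,1,3,2,3,2,1,3,2,3,2,1,3,2,3,2,1,3,2,3,2,1,4,3,2,3,2,1,3,2,3,2,1,3,2,3,2,1,3,2,3,2,1,3,2,3,2,1,4,3,2,3,2,1,3,2,3,2,1,3,2,3,2,1,3,2,3,2,1,3,2,3,2,1]]

theorem presCheck : PresCheck data gens edges extra extraWords where
  ng_eq := rfl
  mem_nodes := mem_gens
  rels_ok := fun k hk => by
    have h : allFrom (fun k => relOK (data.words.take data.nbase) (nthWord data.words k))
        data.nrel 0 = true := by decide +kernel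
    exact allFrom_spec h k (Nat.zero_le k) (by omega)
  pairs_ok := by decide +kernel
  extra_ok := by
    refine List.Forall₂.cons ⟨by decide +kernel, ?_⟩ (List.Forall₂.cons ⟨by decide +kernel, ?_⟩ (List.Forall₂.cons ⟨by decide +kernel, ?_⟩ (List.Forall₂.nil)))
    all_goals
      intro G _ f hf
      have hinv : ∀ x, (f x)⁻¹ = f x := fun x => inv_eq_of_mul_eq_one_right (hf x)
      simp [ev, numGen, gens, pow_succ, mul_assoc, hinv]
  base_ok := by
    have h : (data.words.take data.nbase).all (fun w => w.isEmpty ||
        (List.range data.ng).any (fun g => w == [g, g]) ||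
        (coxNodes edges).any (fun x => (coxNodes edges).any fun y =>
          w == pairWord gens edges x y || w == (pairWord gens edges x y).reverse) ||
        extraWords.contains w) = true := by decide +kernel
    intro w hw
    have h := List.all_eq_true.mp h w hw
    simp only [Bool.or_eq_true, List.any_eq_true, beq_iff_eq, List.isEmpty_iff,
      List.contains_iff_mem, List.mem_range] at h
    rcases h with ((h | h) | h) | h
    · exact Or.inl h
    · exact Or.inr (Or.inl h)
    · exact Or.inr (Or.inr (Or.inl h))
    · exact Or.inr (Or.inr (Or.inr h))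

/-- the subgroup of the certificate -/
abbrev sub : Subgroup Grp :=
  (Subgroup.closure ({(FreeGroup.of Gen.a), (FreeGroup.of Gen.b), (FreeGroup.of Gen.c), (FreeGroup.of Gen.d), (FreeGroup.of Gen.e)} : Set (FreeGroup Gen))).map
    (PresentedGroup.mk (Cfsg.Spor.coxRelators edges ∪ {r | r ∈ extra}))

/-- generator values in the presented group -/
noncomputable abbrev val : Nat → Grp :=
  numGen gens (PresentedGroup.of (rels := coxRelators edges ∪ {r | r ∈ extra}))

theorem word_0 : ev val (nthWord data.words 121) =
    PresentedGroup.mk (coxRelators edges ∪ {r | r ∈ extra}) ((FreeGroup.of Gen.a)) := by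
  rw [show nthWord data.words 121 = [0] by decide +kernel]
  simp [val, numGen, gens, ev, pow_succ, mul_assoc, PresentedGroup.of]

theorem word_1 : ev val (nthWord data.words 122) =
    PresentedGroup.mk (coxRelators edges ∪ {r | r ∈ extra}) ((FreeGroup.of Gen.b)) := by
  rw [show nthWord data.words 122 = [1] by decide +kernel]
  simp [val, numGen, gens, ev, pow_succ, mul_assoc, PresentedGroup.of]

theorem word_2 : ev val (nthWord data.words 123) =
    PresentedGroup.mk (coxRelators edges ∪ {r | r ∈ extra}) ((FreeGroup.of Gen.c)) := by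
  rw [show nthWord data.words 123 = [2] by decide +kernel]
  simp [val, numGen, gens, ev, pow_succ, mul_assoc, PresentedGroup.of]

theorem word_3 : ev val (nthWord data.words 124) =
    PresentedGroup.mk (coxRelators edges ∪ {r | r ∈ extra}) ((FreeGroup.of Gen.d)) := by
  rw [show nthWord data.words 124 = [3] by decide +kernel]
  simp [val, numGen, gens, ev, pow_succ, mul_assoc, PresentedGroup.of]

theorem word_4 : ev val (nthWord data.words 125) =
    PresentedGroup.mk (coxRelators edges ∪ {r | r ∈ extra}) ((FreeGroup.of Gen.e)) := by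
  rw [show nthWord data.words 125 = [4] by decide +kernel]
  simp [val, numGen, gens, ev, pow_succ, mul_assoc, PresentedGroup.of]

theorem sub_eq : sub = Subgroup.closure {x | ∃ k ∈ ([121,122,123,124,125] : List Nat),
    ev val (nthWord data.words k) = x} := by
  rw [sub, MonoidHom.map_closure]
  congr 1
  simp only [Set.image_insert_eq, Set.image_singleton, List.mem_cons, List.not_mem_nil, or_false,
    exists_eq_or_imp, exists_eq_left, word_0, word_1, word_2, word_3, word_4]
  ext x
  simp only [Set.mem_insert_iff, Set.mem_singleton_iff, Set.mem_ofPred_eq]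
  constructor <;> rintro (h|h|h|h|h) <;> simp [h]

/-- the model of the certificate -/
noncomputable def theModel : data.Model val valid sub :=
  model valid presCheck gens_nodup sub
    (fun k hk hl => by
      rw [sub_eq]
      refine Subgroup.subset_closure ⟨k, ?_, rfl⟩
      have h1 : 121 ≤ k := hk
      have h2 : k < 126 := by
        have e : data.words.length = 126 := by decide +kernel
        exact e ▸ hl
      interval_cases k <;> simp)
    (by
      rw [sub_eq]
      refine Subgroup.closure_mono ?_
      rintro x ⟨k, -, rfl⟩
      exact ⟨k, rfl⟩)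

theorem index_sub : sub.index = 416 := theModel.index_eq

end Cfsg.Agent.H16.G24U
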