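import Cfsg.Agent.H16.CosetSimple
import Cfsg.Agent.H16.G24U
import Cfsg.Agent.H16.G24UOrbits
import Cfsg.Agent.H16.G24UBase
import Cfsg.Agent.H16.G24WCheck
import Cfsg.Agent.H16.SuzT1Check
import Cfsg.Agent.H16.SuzT2Check
import Cfsg.Agent.H16.SuzT3Check

/-! The presented subgroup G2(4) of the Suzuki group: order and simplicity. -/

set_option autoImplicit false

namespace Cfsg.Agent.H16.G24Order

open Cfsg.Spor EnumData CoxEnum

/-- relator words -/
abbrev baseWords : List (List Nat) := G24U.data.words.take G24U.data.nbase

theorem wordGroupG24 : WordGroup G24U.Grp G24U.val baseWords := CoxEnum.wordGroup G24U.presCheck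

theorem step3 : checkStep SuzT3.weakData baseWords [0,1] [] = true := by decide +kernel
theorem step2 : checkStep SuzT2.weakData baseWords [0,1,2,3] [0,1] = true := by decide +kernel
theorem step1 : checkStep SuzT1.weakData baseWords [0,1,2,3,4] [0,1,2,3] = true := by decide +kernel
theorem stepTop : checkStep G24U.data baseWords (List.range 6) [0,1,2,3,4] = true := by
  decide +kernel

theorem tower_prod : G24U.data.n * (SuzT1.weakData.n * (SuzT2.weakData.n *
    (SuzT3.weakData.n * 1))) = 251596800 := by decide +kernel

theorem finite_card_le : Finite G24U.Grp ∧ Nat.card G24U.Grp ≤ 251596800 := by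
  have h3 := tower_step wordGroupG24 SuzT3.valid step3 (letterSub_nil _)
  have h2 := tower_step wordGroupG24 SuzT2.valid step2 h3
  have h1 := tower_step wordGroupG24 SuzT1.valid step1 h2
  have ht := tower_step wordGroupG24 G24U.valid stepTop h1
  have htop : letterSub G24U.val (List.range 6) = ⊤ := letterSub_all G24U.presCheck
  rw [htop, Subgroup.card_top, tower_prod] at ht
  exact ⟨haveI := ht.1; Finite.of_equiv _ Subgroup.topEquiv.toEquiv, ht.2⟩

instance : Finite G24U.Grp := finite_card_le.1

theorem card_and_faithful :
    Nat.card G24U.Grp = 251596800 ∧ Function.Injective G24U.theModel.rho :=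
  G24U.theModel.card_eq_of_le G24U.base_ok G24U.base_prod finite_card_le.2

/-- a word of order thirteen -/
abbrev w13 : List Nat := [1,5,4,3,0,1,2,0]

theorem w13_fix : allFrom (fun i => Nat.beq (G24U.data.run (List.replicate 13 w13).flatten i) i)
    G24U.data.n 0 = true := by decide +kernel

theorem w13_lt : ∀ g ∈ w13, g < G24U.data.ng := by decide +kernel

theorem stepW : checkStep G24W.weakData (baseWords ++ [w13]) (List.range 6) [] = true := by
  decide +kernel

theorem w_n : G24W.weakData.n = 1 := by decide +kernel

theorem isSimple : IsSimpleGroup G24U.Grp := by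
  obtain ⟨hcard, hinj⟩ := card_and_faithful
  have hnt : Nontrivial G24U.Grp := Finite.one_lt_card_iff_nontrivial.mp (by rw [hcard]; norm_num)
  have hH : Nat.card G24U.sub = 604800 := by
    have h := Subgroup.index_mul_card G24U.sub
    rw [G24U.index_sub, hcard] at h
    omega
  have hsub : G24U.sub ≤ Subgroup.closure
      {x | ∃ k ∈ G24U.subWords, ev G24U.val (nthWord G24U.data.words k) = x} := G24U.sub_eq.le
  refine isSimpleGroup_of_maximal G24U.sub
    (fun K hK => G24U.theModel.eq_or_eq_top (sizes := [1, 315, 100]) hsub G24U.orbits_ok ?_ ?_ ?_ ?_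
      ?_ rfl ?_ K hK)
    (fun N hN hle => G24U.theModel.core_eq_bot hinj N hN hle)
    (p := 13) (k := 1) (by norm_num) (by rw [hH]; decide)
    (ev G24U.val w13) ?_ ?_
  · intro i hi
    have h : allFrom (fun i => Nat.ble (bitField (G24U.labArr.get 60 i) 0 8).succ 3)
        G24U.data.n 0 = true := by decide +kernel
    exact Nat.le_of_ble_eq_true (allFrom_spec h i (Nat.zero_le _) (by omega))
  · intro l hl
    change l < 3 at hl
    interval_cases l
    exacts [G24U.rep_lt_0, G24U.rep_lt_1, G24U.rep_lt_2]
  · intro l hl
    change l < 3 at hl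
    interval_cases l
    exacts [G24U.rep_lab_0, G24U.rep_lab_1, G24U.rep_lab_2]
  · intro l hl
    change l < 3 at hl
    interval_cases l
    exacts [G24U.count_0, G24U.count_1, G24U.count_2]
  · decide +kernel
  · have hn : G24U.data.n = 416 := rfl
    rw [hn]
    decide
  · rw [pow_one]; exact G24U.theModel.pow_eq_one hinj w13 w13_lt 13 w13_fix
  · intro N hN hw
    exact normal_eq_top wordGroupG24 G24W.valid (letterSub_all G24U.presCheck) stepW w_n N hN hw

end Cfsg.Agent.H16.G24Order
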