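import Cfsg.Agent.S1059
import Cfsg.Agent.H16.O7Iso
import Cfsg.Agent.H16.G24Order
import Cfsg.Agent.H16.G24Mat
import Cfsg.Agent.H16.SuzOrder

/-! The subgroup of Suz on `a, ..., f` is isomorphic to the Chevalley group of type G2 over four elements. -/

set_option autoImplicit false

namespace Cfsg.Agent.H16

open Cfsg.Spor EnumData CoxEnum

namespace G24Iso

theorem ev_flatten {G : Type*} [Group G] (s : Nat → G) (gw : Nat → List Nat) :
    ∀ w : List Nat, ev (fun g => ev s (gw g)) w = ev s (w.map gw).flatten
  | [] => rfl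
  | g :: w => by rw [ev, List.map_cons, List.flatten_cons, ev_append, ev_flatten s gw w]

theorem ev_coe {G : Type*} [Group G] (K : Subgroup G) (s : Nat → K) :
    ∀ w : List Nat, ((ev s w : K) : G) = ev (fun g => (s g : G)) w
  | [] => rfl
  | g :: w => by rw [ev, ev, Subgroup.coe_mul, ev_coe K s w]

/-- the word of a generator -/
def gw (g : Nat) : List Nat := G24Mat.genWords.getD g []

theorem gw_lt : ∀ g, ∀ l ∈ gw g, l < 7 := by
  intro g
  by_cases hg : g < G24Mat.genWords.length
  · have h : G24Mat.genWords.all (fun w => w.all fun l => Nat.ble (l + 1) 7) = true := by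
      decide +kernel
    intro l hl
    rw [gw, List.getD_eq_getElem _ _ hg] at hl
    exact Nat.le_of_ble_eq_true (List.all_eq_true.mp (List.all_eq_true.mp h _ (List.getElem_mem hg)) l hl)
  · intro l hl
    rw [gw, List.getD_eq_default _ _ (Nat.le_of_not_lt hg)] at hl
    cases hl

/-- image of a generator in the Chevalley group -/
noncomputable def genVal (g : Nat) : Cfsg.Lie.chevG2.group F4 :=
  ⟨ev G24Mat.unit (gw g), by
    have : ∀ w : List Nat, ev G24Mat.unit w ∈ Cfsg.Lie.chevG2.group F4 := by
      intro w
      induction w with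
      | nil => exact one_mem _
      | cons a w ih => exact mul_mem ih (G24Mat.unit_mem_group a)
    exact this _⟩

theorem genVal_word {w : List Nat}
    (h : ((List.range 14).map fun k => 4 ^ k).all
      (fun c => Nat.beq (G24Mat.runImg (w.map gw).flatten c) c) = true) : ev genVal w = 1 := by
  apply Subtype.ext
  rw [ev_coe]
  change ev (fun g => ev G24Mat.unit (gw g)) w = 1
  rw [ev_flatten]
  apply Units.ext
  rw [G24Mat.ev_unit_val, Units.val_one]
  refine G24Mat.wordMat_eq_one (fun l hl => ?_) h
  obtain ⟨v, hv, hlv⟩ := List.mem_flatten.mp hl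
  obtain ⟨g, -, rfl⟩ := List.mem_map.mp hv
  exact gw_lt g l hlv

theorem genVal_sq (g : Nat) : genVal g * genVal g = 1 := by
  by_cases hg : g < 6
  · have h : ∀ g : Fin 6, ((List.range 14).map fun k => 4 ^ k).all
        (fun c => Nat.beq (G24Mat.runImg (([g.val, g.val] : List Nat).map gw).flatten c) c) = true := by
      decide +kernel
    have h2 := genVal_word (w := [g, g]) (h ⟨g, hg⟩)
    simpa [ev] using h2
  · have : gw g = [] := List.getD_eq_default _ _ (by
      have : G24Mat.genWords.length = 6 := rfl
      omega)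
    apply Subtype.ext
    simp [genVal, this, ev]

/-- image of a generator -/
noncomputable def genFun (x : G24U.Gen) : Cfsg.Lie.chevG2.group F4 := genVal (G24U.gens.idxOf x)

theorem gens_len : G24U.gens.length = 6 := rfl

theorem base_lt : ∀ w ∈ G24Order.baseWords, ∀ g ∈ w, g < 6 := by
  have h : G24Order.baseWords.all (fun w => w.all fun g => Nat.ble (g + 1) 6) = true := by
    decide +kernel
  intro w hw g hg
  exact Nat.le_of_ble_eq_true (List.all_eq_true.mp (List.all_eq_true.mp h w hw) g hg)

theorem gen_rels : ∀ r ∈ coxRelators G24U.edges ∪ {r | r ∈ G24U.extra},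
    FreeGroup.lift genFun r = 1 := by
  refine lift_rel_of_base G24U.presCheck genFun (fun x => genVal_sq _) fun w hw => ?_
  rw [show genFun = fun x => genVal (G24U.gens.idxOf x) from rfl,
    ev_numGen_comp G24U.gens_nodup genVal w (gens_len ▸ base_lt w hw)]
  have h : G24Order.baseWords.all (fun w => ((List.range 14).map fun k => 4 ^ k).all
      fun c => Nat.beq (G24Mat.runImg (w.map gw).flatten c) c) = true := by decide +kernel
  exact genVal_word (List.all_eq_true.mp h w hw)

/-- the homomorphism to the Chevalley group -/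
noncomputable def chevHom : G24U.Grp →* Cfsg.Lie.chevG2.group F4 := PresentedGroup.toGroup gen_rels

theorem chevHom_injective : Function.Injective chevHom := by
  have := G24Order.isSimple
  rcases IsSimpleGroup.eq_bot_or_eq_top_of_normal chevHom.ker inferInstance with h | h
  · exact (MonoidHom.ker_eq_bot_iff _).mp h
  · exfalso
    have hm : (PresentedGroup.of G24U.Gen.a : G24U.Grp) ∈ chevHom.ker := by
      rw [h]; exact Subgroup.mem_top _
    rw [MonoidHom.mem_ker, chevHom, PresentedGroup.toGroup.of] at hm
    have h2 : G24Mat.mat 6 = 1 := by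
      have h3 := congrArg Units.val (congrArg Subtype.val hm)
      simpa [genFun, genVal, G24U.gens, gw, G24Mat.genWords, ev, G24Mat.unit] using h3
    exact absurd h2 (by decide +kernel)

theorem card_chev : Nat.card (Cfsg.Lie.chevG2.group F4) = 251596800 := by
  have h := Cfsg.Agent.S1059.result (F := F4) F4.card_eq
  norm_num at h
  exact h

/-- the generator in Suz -/
noncomputable def subFun (x : G24U.Gen) : Suz := SuzH.val (G24U.gens.idxOf x)

theorem sub_rels : ∀ r ∈ coxRelators G24U.edges ∪ {r | r ∈ G24U.extra},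
    FreeGroup.lift subFun r = 1 := by
  refine lift_rel_of_base G24U.presCheck subFun (fun x => SuzOrder.wordGroupSuz.sq _) fun w hw => ?_
  rw [show subFun = fun x => SuzH.val (G24U.gens.idxOf x) from rfl,
    ev_numGen_comp G24U.gens_nodup SuzH.val w (gens_len ▸ base_lt w hw)]
  have h : G24Order.baseWords.all (fun w => relOK SuzOrder.baseWords w) = true := by
    decide +kernel
  exact ev_of_relOK _ SuzOrder.wordGroupSuz.sq SuzOrder.wordGroupSuz.base_one
    (List.all_eq_true.mp h w hw)

/-- the map onto the subgroup of Suz -/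
noncomputable def subHom : G24U.Grp →* Suz := PresentedGroup.toGroup sub_rels

theorem subHom_range : subHom.range = letterSub SuzH.val [0,1,2,3,4,5] := by
  rw [MonoidHom.range_eq_map, ← PresentedGroup.closure_range_of, MonoidHom.map_closure]
  change Subgroup.closure _ = Subgroup.closure _
  congr 1
  ext y
  constructor
  · rintro ⟨_, ⟨x, rfl⟩, rfl⟩
    refine ⟨G24U.gens.idxOf x, ?_, (PresentedGroup.toGroup.of sub_rels).symm⟩
    cases x <;> decide
  · rintro ⟨g, hg, rfl⟩
    refine ⟨_, ⟨G24U.gens.getD g .a, rfl⟩, ?_⟩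
    rw [subHom, PresentedGroup.toGroup.of, subFun]
    fin_cases hg <;> rfl

theorem letterSub_eq_sub : letterSub SuzH.val [0,1,2,3,4,5] = SuzH.sub := by
  rw [SuzH.sub_eq]
  refine congrArg Subgroup.closure (Set.ext fun x => ⟨?_, ?_⟩)
  · rintro ⟨g, hg, rfl⟩
    have h : ∀ g ∈ ([0,1,2,3,4,5] : List Nat), (151 + g) ∈ ([151,152,153,154,155,156] : List Nat) ∧
        nthWord SuzH.data.words (151 + g) = [g] := by decide +kernel
    exact ⟨151 + g, (h g hg).1, by rw [(h g hg).2]; simp [ev]⟩
  · rintro ⟨k, hk, rfl⟩
    have h : ∀ k ∈ ([151,152,153,154,155,156] : List Nat), (k - 151) ∈ ([0,1,2,3,4,5] : List Nat) ∧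
        nthWord SuzH.data.words k = [k - 151] := by decide +kernel
    exact ⟨k - 151, (h k hk).1, by rw [(h k hk).2]; simp [ev]⟩

theorem sub_equiv : Nonempty (SuzH.sub ≃* Cfsg.Lie.chevG2.group F4) := by
  have hcard : Nat.card SuzH.sub = 251596800 := by
    have h := Subgroup.index_mul_card SuzH.sub
    rw [SuzH.index_sub, SuzOrder.card_and_faithful.1] at h
    exact Nat.eq_of_mul_eq_mul_left (by norm_num : 0 < 1782) (h.trans (by norm_num))
  have hrange : subHom.range = SuzH.sub := subHom_range.trans letterSub_eq_sub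
  have hb : Function.Bijective subHom.rangeRestrict :=
    (Nat.bijective_iff_surjective_and_card _).mpr
      ⟨subHom.rangeRestrict_surjective, by rw [G24Order.card_and_faithful.1, hrange, hcard]⟩
  have hb2 : Function.Bijective chevHom :=
    (Nat.bijective_iff_injective_and_card _).mpr
      ⟨chevHom_injective, by rw [G24Order.card_and_faithful.1, card_chev]⟩
  exact ⟨((MulEquiv.ofBijective _ hb).trans (MulEquiv.subgroupCongr hrange)).symm.trans
    (MulEquiv.ofBijective _ hb2)⟩

end G24Iso

end Cfsg.Agent.H16
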