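import Cfsg.Prelude.Def_Sporadic
import Cfsg.Agent.H16.CosetSimple
import Cfsg.Agent.H16.J2U
import Cfsg.Agent.H16.J2UOrbits
import Cfsg.Agent.H16.J2UBase
import Cfsg.Agent.H16.SuzT1Check
import Cfsg.Agent.H16.SuzT2Check
import Cfsg.Agent.H16.SuzT3Check
import Cfsg.Agent.H16.J2WCheck

/-! The Hall-Janko group as a permutation group on 100 points. -/

set_option autoImplicit false

namespace Cfsg.Agent.H16.J2Order

open Cfsg.Spor EnumData CoxEnum

/-- relator words -/
abbrev baseWords : List (List Nat) := J2U.data.words.take J2U.data.nbase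

theorem wordGroupJ2 : WordGroup J2U.Grp J2U.val baseWords := CoxEnum.wordGroup J2U.presCheck

theorem step3 : checkStep SuzT3.weakData baseWords [0,1] [] = true := by decide +kernel
theorem step2 : checkStep SuzT2.weakData baseWords [0,1,2,3] [0,1] = true := by decide +kernel
theorem step1 : checkStep SuzT1.weakData baseWords (List.range 5) [0,1,2,3] = true := by decide +kernel

theorem tower_prod : SuzT1.weakData.n * (SuzT2.weakData.n * (SuzT3.weakData.n * 1)) = 604800 := by
  decide +kernel

theorem finite_card_le : Finite J2U.Grp ∧ Nat.card J2U.Grp ≤ 604800 := by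
  have h3 := tower_step wordGroupJ2 SuzT3.valid step3 (letterSub_nil _)
  have h2 := tower_step wordGroupJ2 SuzT2.valid step2 h3
  have ht := tower_step wordGroupJ2 SuzT1.valid step1 h2
  have htop : letterSub J2U.val (List.range 5) = ⊤ := letterSub_all J2U.presCheck
  rw [htop, Subgroup.card_top, tower_prod] at ht
  exact ⟨haveI := ht.1; Finite.of_equiv _ Subgroup.topEquiv.toEquiv, ht.2⟩

instance : Finite J2U.Grp := finite_card_le.1

theorem card_and_faithful :
    Nat.card J2U.Grp = 604800 ∧ Function.Injective J2U.theModel.rho :=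
  J2U.theModel.card_eq_of_le J2U.base_ok J2U.base_prod finite_card_le.2

/-- a word of order five -/
abbrev w5 : List Nat := [0,1]

theorem w5_fix : allFrom (fun i => Nat.beq (J2U.data.run (List.replicate 5 w5).flatten i) i)
    J2U.data.n 0 = true := by decide +kernel

theorem w5_lt : ∀ g ∈ w5, g < J2U.data.ng := by decide +kernel

theorem stepW : checkStep J2W.weakData (baseWords ++ [w5]) (List.range 5) [] = true := by
  decide +kernel

theorem w_n : J2W.weakData.n = 1 := by decide +kernel

theorem isSimple : IsSimpleGroup J2U.Grp := by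
  obtain ⟨hcard, hinj⟩ := card_and_faithful
  have hnt : Nontrivial J2U.Grp := Finite.one_lt_card_iff_nontrivial.mp (by rw [hcard]; norm_num)
  have hH : Nat.card J2U.sub = 6048 := by
    have h := Subgroup.index_mul_card J2U.sub
    rw [J2U.index_sub, hcard] at h
    omega
  have hsub : J2U.sub ≤ Subgroup.closure
      {x | ∃ k ∈ J2U.subWords, ev J2U.val (nthWord J2U.data.words k) = x} := J2U.sub_eq.le
  refine isSimpleGroup_of_maximal J2U.sub
    (fun K hK => J2U.theModel.eq_or_eq_top (sizes := [1, 63, 36]) hsub J2U.orbits_ok ?_ ?_ ?_ ?_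
      ?_ rfl ?_ K hK)
    (fun N hN hle => J2U.theModel.core_eq_bot hinj N hN hle)
    (p := 5) (k := 1) (by norm_num) (by rw [hH]; decide)
    (ev J2U.val w5) ?_ ?_
  · intro i hi
    have h : allFrom (fun i => Nat.ble (bitField (J2U.labArr.get 60 i) 0 8).succ 3)
        J2U.data.n 0 = true := by decide +kernel
    exact Nat.le_of_ble_eq_true (allFrom_spec h i (Nat.zero_le _) (by omega))
  · intro l hl
    change l < 3 at hl
    interval_cases l
    exacts [J2U.rep_lt_0, J2U.rep_lt_1, J2U.rep_lt_2]
  · intro l hl
    change l < 3 at hl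
    interval_cases l
    exacts [J2U.rep_lab_0, J2U.rep_lab_1, J2U.rep_lab_2]
  · intro l hl
    change l < 3 at hl
    interval_cases l
    exacts [J2U.count_0, J2U.count_1, J2U.count_2]
  · decide +kernel
  · have hn : J2U.data.n = 100 := rfl
    rw [hn]
    decide
  · rw [pow_one]; exact J2U.theModel.pow_eq_one hinj w5 w5_lt 5 w5_fix
  · intro N hN hw
    exact normal_eq_top wordGroupJ2 J2W.valid (letterSub_all J2U.presCheck) stepW w_n N hN hw

/-- the group on 100 points -/
theorem exists_perm : ∃ G : Subgroup (Equiv.Perm (Fin 100)), Cfsg.IsJ2 G := by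
  have hinj := card_and_faithful.2
  have hnt : Nontrivial J2U.theModel.rho.range :=
    (MonoidHom.ofInjective hinj).toEquiv.symm.nontrivial_congr.mpr
      (Finite.one_lt_card_iff_nontrivial.mp (by rw [card_and_faithful.1]; norm_num))
  have key : IsSimpleGroup J2U.theModel.rho.range ∧ Nat.card J2U.theModel.rho.range = 604800 :=
    ⟨haveI := isSimple; IsSimpleGroup.isSimpleGroup_of_surjective
        (MonoidHom.ofInjective hinj).toMonoidHom (MonoidHom.ofInjective hinj).surjective,
      (Nat.card_congr (MonoidHom.ofInjective hinj).toEquiv).symm.trans card_and_faithful.1⟩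
  exact ⟨J2U.theModel.rho.range, key⟩

end Cfsg.Agent.H16.J2Order
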